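import Cfsg.Agent.H141.Rg.Act
import Cfsg.Agent.H746.Rg.Index

/-!
# S5714: bad elements of `SL_n(q)` and of `GL_n(q)`
-/

set_option autoImplicit false

namespace Cfsg.Agent.H746.Rg.Psl

open Cfsg Cfsg.Agent.H141.Rg Module Matrix

variable {n : ℕ} {F : Type} [Field F] [Fintype F]

theorem card_bad_sl (hn : 1 ≤ n) (P : GL (Fin n) F → Prop)
    (hP : ∀ (c : Fˣ) y, P y → P (GeneralLinearGroup.scalar (Fin n) c * y)) :
    Nat.card {x : SpecialLinearGroup (Fin n) F // P (SpecialLinearGroup.toGL x)} * Nat.card (GL (Fin n) F) ≤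
      n * Nat.card {y : GL (Fin n) F // P y} * Nat.card (SpecialLinearGroup (Fin n) F) := by
  classical
  have : Nonempty (Fin n) := ⟨⟨0, hn⟩⟩
  have : NeZero n := ⟨by omega⟩
  let S : Subgroup (GL (Fin n) F) := (GeneralLinearGroup.det : GL (Fin n) F →* Fˣ).ker
  have hS : ∀ x : SpecialLinearGroup (Fin n) F, SpecialLinearGroup.toGL x ∈ S := by
    intro x
    rw [MonoidHom.mem_ker]
    apply Units.ext
    exact x.2
  have hS' : ∀ y ∈ S, ∃ x : SpecialLinearGroup (Fin n) F, SpecialLinearGroup.toGL x = y := by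
    intro y hy
    refine ⟨⟨(y : Matrix (Fin n) (Fin n) F), ?_⟩, Units.ext rfl⟩
    exact congrArg Units.val (MonoidHom.mem_ker.1 hy)
  have hinj : Function.Injective (SpecialLinearGroup.toGL : SpecialLinearGroup (Fin n) F →* GL (Fin n) F) := by
    intro x y h
    exact Subtype.ext (congrArg Units.val h)
  have h1 := index_trick (GeneralLinearGroup.scalar (Fin n) : Fˣ →* GL (Fin n) F) S P hP
  have e1 : Nat.card {x : SpecialLinearGroup (Fin n) F // P (SpecialLinearGroup.toGL x)} =
      Nat.card {x : S // P x} := by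
    refine Nat.card_congr (Equiv.ofBijective
      (fun x => (⟨⟨SpecialLinearGroup.toGL x.1, hS x.1⟩, x.2⟩ : {x : S // P x})) ⟨?_, ?_⟩)
    · intro x y h
      have h2 := congrArg (fun t => (t.1.1 : GL (Fin n) F)) h
      exact Subtype.ext (hinj h2)
    · rintro ⟨⟨y, hy⟩, hPy⟩
      obtain ⟨x, rfl⟩ := hS' y hy
      exact ⟨⟨x, hPy⟩, rfl⟩
  have e2 : Nat.card (GL (Fin n) F) = Nat.card Fˣ * Nat.card (SpecialLinearGroup (Fin n) F) := by
    have h3 : Function.Surjective (GeneralLinearGroup.det : GL (Fin n) F →* Fˣ) := by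
      intro c
      let i0 : Fin n := ⟨0, hn⟩
      have hd : (Matrix.diagonal (Function.update (fun _ : Fin n => (1 : F)) i0 c)).det = c := by
        rw [Matrix.det_diagonal, Finset.prod_update_of_mem (Finset.mem_univ _)]
        simp
      refine ⟨GeneralLinearGroup.mkOfDetNeZero _ (by rw [hd]; exact c.ne_zero), ?_⟩
      apply Units.ext
      exact hd
    have h4 := Subgroup.card_eq_card_quotient_mul_card_subgroup S
    have h5 : Nat.card (GL (Fin n) F ⧸ S) = Nat.card Fˣ :=
      Nat.card_congr (QuotientGroup.quotientKerEquivOfSurjective _ h3).toEquiv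
    have h6 : Nat.card S = Nat.card (SpecialLinearGroup (Fin n) F) := by
      refine (Nat.card_congr (Equiv.ofBijective
        (fun x : SpecialLinearGroup (Fin n) F => (⟨SpecialLinearGroup.toGL x, hS x⟩ : S)) ⟨?_, ?_⟩)).symm
      · intro x y h
        exact hinj (congrArg Subtype.val h)
      · rintro ⟨y, hy⟩
        obtain ⟨x, rfl⟩ := hS' y hy
        exact ⟨x, rfl⟩
    rw [h4, h5, h6]
  have e3 : Nat.card {c : Fˣ // GeneralLinearGroup.scalar (Fin n) c ∈ S} ≤ n := by
    have h7 : Nat.card {c : Fˣ // GeneralLinearGroup.scalar (Fin n) c ∈ S} ≤ Nat.card (rootsOfUnity n F) := by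
      refine Nat.card_le_card_of_injective (fun c => (⟨c.1, ?_⟩ : rootsOfUnity n F)) ?_
      · rw [mem_rootsOfUnity]
        have h8 := MonoidHom.mem_ker.1 c.2
        have h9 := congrArg Units.val h8
        apply Units.ext
        rw [Units.val_pow_eq_pow_val, Units.val_one]
        have h10 : (Matrix.scalar (Fin n) (c.1 : F)).det = 1 := h9
        rwa [Matrix.scalar_apply, Matrix.det_diagonal, Finset.prod_const, Finset.card_univ, Fintype.card_fin] at h10
      · intro c d h
        have h8 : c.1 = d.1 := congrArg (fun t : rootsOfUnity n F => (t : Fˣ)) h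
        exact Subtype.ext h8
    exact h7.trans (card_rootsOfUnity F n)
  rw [e1, e2]
  calc _ = Nat.card Fˣ * Nat.card {x : S // P x} * Nat.card (SpecialLinearGroup (Fin n) F) := by ring
    _ ≤ Nat.card {c : Fˣ // GeneralLinearGroup.scalar (Fin n) c ∈ S} * Nat.card {y : GL (Fin n) F // P y} *
        Nat.card (SpecialLinearGroup (Fin n) F) := Nat.mul_le_mul_right _ h1
    _ ≤ _ := Nat.mul_le_mul_right _ (Nat.mul_le_mul_right _ e3)

omit [Fintype F] in
theorem glAct_scalar (c : Fˣ) (y : GL (Fin n) F) :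
    glAct n F (GeneralLinearGroup.scalar (Fin n) c * y) = (c : F) • glAct n F y := by
  apply LinearMap.ext
  intro v
  change Matrix.toLin' ((Matrix.scalar (Fin n) (c : F)) * (y : Matrix (Fin n) (Fin n) F)) v =
    (c : F) • Matrix.toLin' (y : Matrix (Fin n) (Fin n) F) v
  rw [Matrix.toLin'_apply, Matrix.toLin'_apply, ← Matrix.mulVec_mulVec, Matrix.scalar_apply]
  ext i
  rw [Matrix.mulVec_diagonal]
  rfl

/-- the index trick for `SL_n(q)` -/
theorem bad_sl_le (hn : 1 ≤ n) (s0 k : ℕ) {δ : ℝ}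
    (h : (Nat.card {y : GL (Fin n) F // ¬ ∃ A : Submodule F (Fin n → F), finrank F A ≤ s0 ∧ GoodPow (glAct n F y) A k} : ℝ) ≤
      δ * Nat.card (GL (Fin n) F)) :
    (Nat.card {x : SpecialLinearGroup (Fin n) F //
      ¬ ∃ A : Submodule F (Fin n → F), finrank F A ≤ s0 ∧ GoodPow (slAct n F x) A k} : ℝ) ≤
      n * δ * Nat.card (SpecialLinearGroup (Fin n) F) := by
  have h1 := card_bad_sl hn (fun y : GL (Fin n) F =>
    ¬ ∃ A : Submodule F (Fin n → F), finrank F A ≤ s0 ∧ GoodPow (glAct n F y) A k) (by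
      intro c y hy ⟨A, hA, hg⟩
      refine hy ⟨A, hA, ?_⟩
      rw [glAct_scalar] at hg
      exact (goodPow_smul_iff c.ne_zero).1 hg)
  have h2 : (Nat.card {x : SpecialLinearGroup (Fin n) F //
      ¬ ∃ A : Submodule F (Fin n → F), finrank F A ≤ s0 ∧ GoodPow (slAct n F x) A k} : ℝ) *
        Nat.card (GL (Fin n) F) ≤ n * Nat.card {y : GL (Fin n) F //
        ¬ ∃ A : Submodule F (Fin n → F), finrank F A ≤ s0 ∧ GoodPow (glAct n F y) A k} *
        Nat.card (SpecialLinearGroup (Fin n) F) := by exact_mod_cast h1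
  have hpos : (0 : ℝ) < Nat.card (GL (Fin n) F) := Nat.cast_pos.2 Nat.card_pos
  refine le_of_mul_le_mul_right (h2.trans ?_) hpos
  calc _ ≤ n * (δ * Nat.card (GL (Fin n) F)) * Nat.card (SpecialLinearGroup (Fin n) F) := by gcongr
    _ = _ := by ring

end Cfsg.Agent.H746.Rg.Psl
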